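import Mathlib
import Cfsg.Prelude.Def_BaumannBlocks

/-!
S2986 (two subnormal Baumann blocks of a group of characteristic `p` are equal or commute):
interface of the team project (helper41).  Definitions and package statements only.
-/

set_option autoImplicit false

namespace Cfsg.Agent.Lib.Helper41.SnB

open Cfsg

universe u

variable {G : Type u} [Group G]

/-- `H` normalizes `K`, elementwise. -/
def Nz (H K : Subgroup G) : Prop := ∀ h ∈ H, ∀ k ∈ K, h * k * h⁻¹ ∈ K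

/-- `H` centralizes `K`, elementwise. -/
def Cz (H K : Subgroup G) : Prop := ∀ h ∈ H, ∀ k ∈ K, h * k = k * h

/-- `Q = O_p(E)`, in the ambient group. -/
abbrev Qb (p : ℕ) (E : Subgroup G) : Subgroup G := pCoreOf p E

/-- `W = Ω₁(Z(O_p(E)))`. -/
abbrev Wb (p : ℕ) (E : Subgroup G) : Subgroup G := omegaOneCenter p (pCoreOf p E)

/-- `Z = C_W(E)`. -/
abbrev Zb (p : ℕ) (E : Subgroup G) : Subgroup G :=
  omegaOneCenter p (pCoreOf p E) ⊓ Subgroup.centralizer (E : Set G)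

/-- `A = [W, E]`. -/
abbrev Ab (p : ℕ) (E : Subgroup G) : Subgroup G := ⁅omegaOneCenter p (pCoreOf p E), E⁆

/-- `V = Ω₁(Z(O_p(G)))`. -/
abbrev Vb (p : ℕ) (G : Type u) [Group G] : Subgroup G := omegaOneCenter p (pCore p G)

/-- The abstract content of the exceptional alternative (`p = 3`, `Q ≠ W`). -/
def ExcData (p : ℕ) (E : Subgroup G) : Prop :=
  p = 3 ∧ ⁅Qb p E, Qb p E⁆ = Zb p E ∧ E ⊓ Subgroup.centralizer (E : Set G) = Zb p E ∧
    Zb p E ≠ ⊥ ∧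
    (∀ X : Subgroup G, X ≤ Qb p E → Nz E X → ¬ X ≤ Wb p E →
      ∀ u ∈ Qb p E, ∃ x ∈ X, ∃ w ∈ Wb p E, u = x * w) ∧
    (∀ e ∈ E, (∀ u ∈ Qb p E, e * u * e⁻¹ * u⁻¹ ∈ Wb p E) → e ∈ Qb p E)

/-- The abstract facts on a subnormal Baumann block `E` of a group of characteristic `p`. -/
structure SBlk (p : ℕ) (E : Subgroup G) : Prop where
  res : pResidualOf p E = E
  QE : ⁅Qb p E, E⁆ = Qb p E
  QP : Qb p E ≤ pCore p G
  PN : pCore p G ≤ Subgroup.normalizer (E : Set G)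
  EP : E ⊓ pCore p G ≤ Qb p E
  OEP : pResidualOf p (E ⊔ pCore p G) = E
  AV : Ab p E ≤ Vb p G
  WZ : ¬ Wb p E ≤ Zb p E
  coverW : ∀ X : Subgroup G, X ≤ Wb p E → Nz E X → ¬ X ≤ Zb p E →
    ∀ u ∈ Wb p E, ∃ x ∈ X, ∃ z ∈ Zb p E, u = x * z
  faithW : ∀ e ∈ E, (∀ w ∈ Wb p E, e * w * e⁻¹ * w⁻¹ ∈ Zb p E) → e ∈ Qb p E
  alt : Qb p E = Wb p E ∨ ExcData p E

/-- Quasisimple type: `E / O_p(E)` is quasisimple and `E` has a `p`-element outside `O_p(E)`. -/
def QsType (p : ℕ) (E : Subgroup G) : Prop :=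
  IsQuasisimple (↥E ⧸ pCore p ↥E) ∧ ∃ t ∈ E, t ∉ Qb p E ∧ ∃ k : ℕ, t ^ (p ^ k) = 1

/-- Type `C₃` (`p = 2`): `E / O_2(E)` has order 3, `O_2(E) = W` has order 4. -/
def C3Type (p : ℕ) (E : Subgroup G) : Prop :=
  p = 2 ∧ Nat.card (↥E ⧸ pCore p ↥E) = 3 ∧ Qb p E = Wb p E ∧ Nat.card ↥(Qb p E) = 4

/-- Type `Q₈` (`p = 3`): the linear clause of `IsBaumannBlock` with a field of 3 elements. -/
def Q8Type (p : ℕ) (T E : Subgroup G) : Prop :=
  p = 3 ∧ ∃ (F : Type) (_ : Field F) (_ : Fintype F), Fintype.card F = 3 ∧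
    Nonempty (↥E ⧸ pCore p ↥E ≃* ↥(commutator (Matrix.SpecialLinearGroup (Fin 2) F))) ∧
    ActsAsSL2OnSection F (commutator (Matrix.SpecialLinearGroup (Fin 2) F)) E
      (omegaOneCenter p (pCoreOf p E))
      (omegaOneCenter p (pCoreOf p E) ⊓ Subgroup.centralizer (E : Set G)) ∧
    (pCoreOf p E = omegaOneCenter p (pCoreOf p E) ∨
      (ActsAsSL2OnSection F (commutator (Matrix.SpecialLinearGroup (Fin 2) F)) E
          (pCoreOf p E) (omegaOneCenter p (pCoreOf p E)) ∧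
        ⁅pCoreOf p E, pCoreOf p E⁆ =
          omegaOneCenter p (pCoreOf p E) ⊓ Subgroup.centralizer (E : Set G) ∧
        E ⊓ Subgroup.centralizer (E : Set G) =
          omegaOneCenter p (pCoreOf p E) ⊓ Subgroup.centralizer (E : Set G) ∧
        Nat.card ↥(E ⊓ Subgroup.centralizer (E : Set G)) = 3 ∧
        ∀ b : G, b ∈ baumannSubgroupOf p T →
          b ∉ Subgroup.centralizer (omegaOneCenter p (pCoreOf p E) : Set G) →
          ¬ ⁅⁅pCoreOf p E, Subgroup.zpowers b⁆, Subgroup.zpowers b⁆ ≤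
            E ⊓ Subgroup.centralizer (E : Set G)))

/-- A pair `(K, A)` with distinguished element `z` for the orbit lemma: `A ≤ N` of order `a`,
normal in `N`, `[N, K] ≤ A`, `z ∈ Z(K)` fixed-point-free on `A`, and every subgroup `K₀` of `K`
with at most two cosets contains `z` and leaves no subgroup of `A` other than `1`, `A`
invariant. -/
def CQPair (N : Subgroup G) (a : ℕ) (K A : Subgroup G) (z : G) : Prop :=
  A ≤ N ∧ Nat.card ↥A = a ∧ Nz N A ∧ (∀ u ∈ N, ∀ k ∈ K, k * u * k⁻¹ * u⁻¹ ∈ A) ∧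
    z ∈ K ∧ (∀ k ∈ K, z * k = k * z) ∧ (∀ u ∈ A, z * u = u * z → u = 1) ∧
    (∀ K₀ : Subgroup G, K₀ ≤ K →
      (∀ l ∈ K, ∀ l' ∈ K, l ∉ K₀ → l' ∉ K₀ → l⁻¹ * l' ∈ K₀) →
      z ∈ K₀ ∧ ∀ D : Subgroup G, D ≤ A → Nz K₀ D → D = ⊥ ∨ D = A)

/-! ### Packages -/

/-- [SB] extraction of the abstract facts. -/
def PkgSB : Prop :=
  ∀ {G : Type u} [Group G] [Finite G] {p : ℕ} [Fact p.Prime],
    Subgroup.centralizer (pCore p G : Set G) ≤ pCore p G →
    ∀ (T : Sylow p G) (E : Subgroup G), IsBaumannBlock p (T : Subgroup G) E → E.IsSubnormal →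
      SBlk p E

/-- [TY] the three types. -/
def PkgTY : Prop :=
  ∀ {G : Type u} [Group G] [Finite G] {p : ℕ} [Fact p.Prime] (T E : Subgroup G),
    IsBaumannBlock p T E → QsType p E ∨ C3Type p E ∨ Q8Type p T E

/-- [SL3] the derived group of `SL₂(3)` has order 8. -/
def PkgSL3 : Prop :=
  ∀ (F : Type) [Field F] [Fintype F], Fintype.card F = 3 →
    Nat.card ↥(commutator (Matrix.SpecialLinearGroup (Fin 2) F)) = 8

/-- [CQ] the orbit lemma: two pairs in a nilpotent group `S` normalizing `N` have the same `A`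
or centralize each other's `A`. -/
def PkgCQ : Prop :=
  ∀ {G : Type u} [Group G] (S N : Subgroup G) [Finite ↥S] (r : ℕ) [Fact r.Prime],
    IsPGroup r ↥S → Nz S N → ∀ a : ℕ, 1 < a →
    ∀ (K₁ A₁ : Subgroup G) (z₁ : G) (K₂ A₂ : Subgroup G) (z₂ : G), K₁ ≤ S → K₂ ≤ S →
      CQPair N a K₁ A₁ z₁ → CQPair N a K₂ A₂ z₂ → A₁ = A₂ ∨ (Cz K₂ A₁ ∧ Cz K₁ A₂)

/-- [QS] one block of quasisimple type. -/
def PkgQS : Prop :=
  ∀ {G : Type u} [Group G] [Finite G] {p : ℕ} [Fact p.Prime] (E F : Subgroup G),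
    SBlk p E → SBlk p F → E.IsSubnormal → F.IsSubnormal → QsType p E →
    (QsType p F ∨ ∃ r : ℕ, r.Prime ∧ IsPGroup r (↥F ⧸ pCore p ↥F)) →
    E = F ∨ ⁅E, F⁆ = ⊥

/-- [C3] both blocks of type `C₃` (`p = 2`). -/
def PkgC3 : Prop :=
  ∀ {G : Type u} [Group G] [Finite G] {p : ℕ} [Fact p.Prime],
    Subgroup.centralizer (pCore p G : Set G) ≤ pCore p G →
    ∀ (E F : Subgroup G), SBlk p E → SBlk p F → E.IsSubnormal → F.IsSubnormal →
      C3Type p E → C3Type p F → E = F ∨ ⁅E, F⁆ = ⊥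

/-- [Q8] both blocks of type `Q₈` (`p = 3`). -/
def PkgQ8 : Prop :=
  ∀ {G : Type u} [Group G] [Finite G] {p : ℕ} [Fact p.Prime],
    Subgroup.centralizer (pCore p G : Set G) ≤ pCore p G →
    ∀ (TE TF : Sylow p G) (E F : Subgroup G),
      IsBaumannBlock p (TE : Subgroup G) E → IsBaumannBlock p (TF : Subgroup G) F →
      SBlk p E → SBlk p F → E.IsSubnormal → F.IsSubnormal →
      Q8Type p (TE : Subgroup G) E → Q8Type p (TF : Subgroup G) F → E = F ∨ ⁅E, F⁆ = ⊥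

end Cfsg.Agent.Lib.Helper41.SnB
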