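import Mathlib
import Cfsg.Agent.Lib.Helper41.SnB.Defs

/-!
S2986, the `Q₈` case (`p = 3`, both blocks with `E / O_3(E) ≅ SL₂(3)' ≅ Q₈`): interface of the
sub-project (helper41).  Definitions and package statements only.
-/

set_option autoImplicit false

namespace Cfsg.Agent.Lib.Helper41.SnB

open Cfsg

universe u

variable {G : Type u} [Group G]

/-- `S₀` is a `2`-subgroup with `O_p(G) S₀` normal in `G` (a Sylow `2`-subgroup of the preimage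
of `O_2(G / O_p(G))`). -/
def SylSetup (p : ℕ) (S₀ : Subgroup G) : Prop :=
  IsPGroup 2 ↥S₀ ∧ ∀ g : G, ∀ s ∈ S₀, ∃ c ∈ pCore p G, ∃ s' ∈ S₀, g * s * g⁻¹ = c * s'

/-- Structure of a block `X` of type `Q₈` relative to `S₀`: `K ≤ S₀` a complement to `Q` in `X`
of order 8 with central involution `z`; `A = [W, X]` of order 9 inverted by `z`. -/
structure Q8S (p : ℕ) (S₀ X K : Subgroup G) (z : G) : Prop where
  KS : K ≤ S₀
  KX : K ≤ X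
  dec : ∀ x ∈ X, ∃ q ∈ Qb p X, ∃ k ∈ K, x = q * k
  cardK : Nat.card ↥K = 8
  zK : z ∈ K
  z1 : z ≠ 1
  zz : z * z = 1
  zc : ∀ k ∈ K, z * k = k * z
  sq : ∀ k ∈ K, k = 1 ∨ k = z ∨ k * k = z
  cardA : Nat.card ↥(Ab p X) = 9
  invA : ∀ a ∈ Ab p X, z * a * z⁻¹ = a⁻¹
  faithA : ∀ k ∈ K, (∀ a ∈ Ab p X, k * a = a * k) → k = 1
  VA : ∀ v ∈ Vb p G, ∀ x ∈ X, x * v * x⁻¹ * v⁻¹ ∈ Ab p X

/-- Extra structure of an exceptional block (`Q ≠ W`). -/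
structure ExcS (p : ℕ) (X K : Subgroup G) (z : G) : Prop where
  WAZ : ∀ w ∈ Wb p X, ∃ a ∈ Ab p X, ∃ ζ ∈ Zb p X, w = a * ζ
  cardZ : Nat.card ↥(Zb p X) = 3
  comm : ⁅Qb p X, Qb p X⁆ = Zb p X
  cardQ : Nat.card ↥(Qb p X) = 243
  invQ : ∀ u ∈ Qb p X, z * u * z⁻¹ * u ∈ Wb p X
  faithQ : ∀ k ∈ K, (∀ u ∈ Qb p X, k * u * k⁻¹ * u⁻¹ ∈ Wb p X) → k = 1
  coverQ : ∀ Y : Subgroup G, Y ≤ Qb p X → Nz X Y → ¬ Y ≤ Wb p X →
    ∀ u ∈ Qb p X, ∃ y ∈ Y, ∃ w ∈ Wb p X, u = y * w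

/-- The consequence of the non-quadratic axiom used in the `Q₈` case: an element `x` of `S₀`
normalizing `Q`, trivial on `W / Z`, with `[O_p(G), x]` trivial on `Q / Z`, is trivial on
`Q / W`. -/
def NQprop (p : ℕ) (S₀ X : Subgroup G) : Prop :=
  ∀ x ∈ S₀, (∀ u ∈ Qb p X, x * u * x⁻¹ ∈ Qb p X) →
    (∀ w ∈ Wb p X, x * w * x⁻¹ * w⁻¹ ∈ Zb p X) →
    (∀ c ∈ pCore p G, ∀ u ∈ Qb p X,
      (x * c * x⁻¹ * c⁻¹) * u * (x * c * x⁻¹ * c⁻¹)⁻¹ * u⁻¹ ∈ Zb p X) →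
    ∀ u ∈ Qb p X, x * u * x⁻¹ * u⁻¹ ∈ Wb p X

/-- The abstract data of a block of type `Q₈` relative to `S₀`. -/
def Q8D (p : ℕ) (S₀ X K : Subgroup G) (z : G) : Prop :=
  Q8S p S₀ X K z ∧ (Qb p X = Ab p X ∨ (ExcS p X K z ∧ NQprop p S₀ X))

/-- The element of the Baumann subgroup used for an exceptional block. -/
def BData (p : ℕ) (X : Subgroup G) (b : G) : Prop :=
  b ∈ Subgroup.normalizer (X : Set G) ∧ (∃ k : ℕ, b ^ (p ^ k) = 1) ∧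
    ¬ ⁅⁅Qb p X, Subgroup.zpowers b⁆, Subgroup.zpowers b⁆ ≤ Zb p X

/-! ### Packages -/

/-- [SYL] existence of `S₀`, and conjugation of `2`-subgroups of subnormal subgroups that are
`2`-groups modulo `O_p(G)` into `S₀` by elements of `O_p(G)`. -/
def PkgSyl : Prop :=
  ∀ {G : Type u} [Group G] [Finite G] {p : ℕ} [Fact p.Prime], p ≠ 2 →
    ∃ S₀ : Subgroup G, SylSetup p S₀ ∧
      ∀ X K : Subgroup G, X.IsSubnormal → (∀ x ∈ X, ∃ m : ℕ, x ^ (2 ^ m) ∈ pCore p G) →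
        K ≤ X → IsPGroup 2 ↥K → ∃ c ∈ pCore p G, ∀ k ∈ K, c * k * c⁻¹ ∈ S₀

/-- [SL3x] the derived group of `SL₂(3)`: it contains `-1`, and each of its elements is `1`,
`-1` or squares to `-1`. -/
def PkgSL3x : Prop :=
  ∀ (F : Type) [Field F] [Fintype F], Fintype.card F = 3 →
    ∃ z ∈ commutator (Matrix.SpecialLinearGroup (Fin 2) F),
      (∀ v : Fin 2 → F, (z : Matrix (Fin 2) (Fin 2) F).mulVec v = -v) ∧
      (∀ M : Matrix.SpecialLinearGroup (Fin 2) F, z * M = M * z) ∧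
      (∀ M ∈ commutator (Matrix.SpecialLinearGroup (Fin 2) F), M = 1 ∨ M = z ∨ M * M = z)

/-- [Q8X] extraction of the structure of a subnormal block of type `Q₈`. -/
def PkgQ8X : Prop :=
  ∀ {G : Type u} [Group G] [Finite G] {p : ℕ} [Fact p.Prime],
    Subgroup.centralizer (pCore p G : Set G) ≤ pCore p G →
    ∀ S₀ : Subgroup G, SylSetup p S₀ →
      (∀ X K : Subgroup G, X.IsSubnormal → (∀ x ∈ X, ∃ m : ℕ, x ^ (2 ^ m) ∈ pCore p G) →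
        K ≤ X → IsPGroup 2 ↥K → ∃ c ∈ pCore p G, ∀ k ∈ K, c * k * c⁻¹ ∈ S₀) →
      ∀ (T : Sylow p G) (X : Subgroup G), IsBaumannBlock p (T : Subgroup G) X → SBlk p X →
        X.IsSubnormal → Q8Type p (T : Subgroup G) X →
        ∃ (K : Subgroup G) (z : G), Q8S p S₀ X K z ∧
          (Qb p X = Ab p X ∨ (ExcS p X K z ∧ ∃ b : G, BData p X b))

/-- [NQ] the non-quadratic argument. -/
def PkgNQ : Prop :=
  ∀ {G : Type u} [Group G] [Finite G] {p : ℕ} [Fact p.Prime], p = 3 →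
    ∀ (S₀ X K : Subgroup G) (z b : G), SylSetup p S₀ → SBlk p X → Q8S p S₀ X K z →
      ExcS p X K z → BData p X b → NQprop p S₀ X

/-- [Q8M] the main case analysis. -/
def PkgQ8M : Prop :=
  ∀ {G : Type u} [Group G] [Finite G] {p : ℕ} [Fact p.Prime], p = 3 →
    Subgroup.centralizer (pCore p G : Set G) ≤ pCore p G →
    ∀ (S₀ E F KE KF : Subgroup G) (zE zF : G), SylSetup p S₀ → SBlk p E → SBlk p F →
      Q8D p S₀ E KE zE → Q8D p S₀ F KF zF → E = F ∨ ⁅E, F⁆ = ⊥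

/-- [Q8] from its four parts. -/
theorem pkgQ8_of (hSyl : PkgSyl.{u}) (hX : PkgQ8X.{u}) (hNQ : PkgNQ.{u}) (hM : PkgQ8M.{u}) :
    PkgQ8.{u} := by
  intro G _ _ p _ hG TE TF E F hE hF bE bF sE sF oE oF
  have p3 : p = 3 := oE.1
  have p2 : p ≠ 2 := by omega
  obtain ⟨S₀, hS, hpos⟩ := hSyl (G := G) (p := p) p2
  obtain ⟨KE, zE, qE, aE⟩ := hX hG S₀ hS hpos TE E hE bE sE oE
  obtain ⟨KF, zF, qF, aF⟩ := hX hG S₀ hS hpos TF F hF bF sF oF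
  have dE : Q8D p S₀ E KE zE := by
    refine ⟨qE, ?_⟩
    rcases aE with h | ⟨hexc, b, hb⟩
    · exact Or.inl h
    · exact Or.inr ⟨hexc, hNQ p3 S₀ E KE zE b hS bE qE hexc hb⟩
  have dF : Q8D p S₀ F KF zF := by
    refine ⟨qF, ?_⟩
    rcases aF with h | ⟨hexc, b, hb⟩
    · exact Or.inl h
    · exact Or.inr ⟨hexc, hNQ p3 S₀ F KF zF b hS bF qF hexc hb⟩
  exact hM p3 hG S₀ E F KE KF zE zF hS bE bF dE dF

end Cfsg.Agent.Lib.Helper41.SnB
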