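import Mathlib
import Cfsg.Agent.Lib.Helper41.SnB.Defs

/-!
S2986 from the packages (helper41).
-/

set_option autoImplicit false

namespace Cfsg.Agent.Lib.Helper41.SnB

open Cfsg

universe u

/-- The statement of S2986. -/
def S2986Stmt : Prop :=
  ∀ {G : Type u} [Group G] [Finite G] {p : ℕ} [Fact p.Prime]
    (_ : Subgroup.centralizer (Cfsg.pCore p G : Set G) ≤ Cfsg.pCore p G) (E F : Subgroup G)
    (_ : ∃ T : Sylow p G, Cfsg.IsBaumannBlock p (T : Subgroup G) E)
    (_ : ∃ T : Sylow p G, Cfsg.IsBaumannBlock p (T : Subgroup G) F)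
    (_ : E.IsSubnormal) (_ : F.IsSubnormal), E = F ∨ ⁅E, F⁆ = ⊥

theorem q8_isPGroup (hSL : PkgSL3) {G : Type u} [Group G] [Finite G] {p : ℕ} {T E : Subgroup G}
    (h : Q8Type p T E) : ∃ r : ℕ, r.Prime ∧ IsPGroup r (↥E ⧸ pCore p ↥E) := by
  obtain ⟨-, F, _, _, hF, ⟨e⟩, -⟩ := h
  refine ⟨2, Nat.prime_two, ?_⟩
  have h8 := hSL F hF
  have hc : Nat.card (↥E ⧸ pCore p ↥E) = 2 ^ 3 := by
    rw [Nat.card_congr e.toEquiv, h8]; norm_num
  have : Fact (Nat.Prime 2) := ⟨Nat.prime_two⟩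
  exact IsPGroup.of_card hc

theorem c3_isPGroup {G : Type u} [Group G] [Finite G] {p : ℕ} {E : Subgroup G}
    (h : C3Type p E) : ∃ r : ℕ, r.Prime ∧ IsPGroup r (↥E ⧸ pCore p ↥E) := by
  obtain ⟨-, h3, -⟩ := h
  refine ⟨3, Nat.prime_three, ?_⟩
  have : Fact (Nat.Prime 3) := ⟨Nat.prime_three⟩
  exact IsPGroup.of_card (n := 1) (by rw [h3]; norm_num)

theorem s2986_of (hSB : PkgSB.{u}) (hTY : PkgTY.{u}) (hSL : PkgSL3) (hQS : PkgQS.{u})
    (hC3 : PkgC3.{u}) (hQ8 : PkgQ8.{u}) : S2986Stmt.{u} := by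
  intro G _ _ p _ hG E F hE hF hEs hFs
  obtain ⟨TE, hTE⟩ := hE
  obtain ⟨TF, hTF⟩ := hF
  have bE := hSB hG TE E hTE hEs
  have bF := hSB hG TF F hTF hFs
  have tE := hTY (TE : Subgroup G) E hTE
  have tF := hTY (TF : Subgroup G) F hTF
  rcases tE with qE | cE | oE
  · refine hQS E F bE bF hEs hFs qE ?_
    rcases tF with qF | cF | oF
    · exact Or.inl qF
    · exact Or.inr (c3_isPGroup cF)
    · exact Or.inr (q8_isPGroup hSL oF)
  · rcases tF with qF | cF | oF
    · have h := hQS F E bF bE hFs hEs qF (Or.inr (c3_isPGroup cE))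
      rcases h with h | h
      · exact Or.inl h.symm
      · right; rw [Subgroup.commutator_comm]; exact h
    · exact hC3 hG E F bE bF hEs hFs cE cF
    · exfalso
      have h2 := cE.1
      have h3 := oF.1
      omega
  · rcases tF with qF | cF | oF
    · have h := hQS F E bF bE hFs hEs qF (Or.inr (q8_isPGroup hSL oE))
      rcases h with h | h
      · exact Or.inl h.symm
      · right; rw [Subgroup.commutator_comm]; exact h
    · exfalso
      have h2 := cF.1
      have h3 := oE.1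
      omega
    · exact hQ8 hG TE TF E F hTE hTF bE bF hEs hFs oE oF

end Cfsg.Agent.Lib.Helper41.SnB
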